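import Groth.Agent.Lib.Helper16.FunFld2
import Mathlib.FieldTheory.IsAlgClosed.Basic

/-! helper16: function fields of one variable, part 3 (linear series, vanishing sequences). -/

open IntermediateField Polynomial

namespace Groth.Agent.Lib.Helper16.FunFldLib

variable {k K : Type*} [Field k] [Field K] [Algebra k K]

section LinSeries

theorem deg_eq_one_of_isAlgClosed [IsAlgClosed k] (hK : FunFld.IsFunctionField k K)
    (P : FunFld.Place k K) : P.deg = 1 := by
  have hfd := finiteDimensional_residueField hK P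
  have hfd' : @Module.Finite k (IsLocalRing.ResidueField P.O) _ _ Algebra.toModule := hfd
  have : Algebra.IsIntegral k (IsLocalRing.ResidueField P.O) :=
    Algebra.IsIntegral.of_finite k _
  have hb := IsAlgClosed.algebraMap_bijective_of_isIntegral (k := k)
    (K := IsLocalRing.ResidueField P.O)
  let e := AlgEquiv.ofBijective (Algebra.ofId k (IsLocalRing.ResidueField P.O)) hb
  unfold FunFld.Place.deg
  exact (e.toLinearEquiv.finrank_eq).symm.trans (Module.finrank_self k)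

theorem L_inf_le (P Q : FunFld.Place k K) (hPQ : P ≠ Q) (D : FunFld.Divisor k K) (n m : ℤ) :
    FunFld.L (D - Finsupp.single P n) ⊓ FunFld.L (D - Finsupp.single Q m) ≤
      FunFld.L (D - Finsupp.single P n - Finsupp.single Q m) := by
  classical
  rintro x ⟨h1, h2⟩ R
  by_cases hRP : R = P
  · subst hRP
    have := h1 R
    simp only [Finsupp.sub_apply, Finsupp.single_eq_same] at this ⊢
    rwa [Finsupp.single_eq_of_ne hPQ, sub_zero]
  · by_cases hRQ : R = Q
    · subst hRQ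
      have := h2 R
      simp only [Finsupp.sub_apply, Finsupp.single_eq_same] at this ⊢
      rwa [Finsupp.single_eq_of_ne hRP, sub_zero]
    · have := h1 R
      simp only [Finsupp.sub_apply] at this ⊢
      rw [Finsupp.single_eq_of_ne hRP, sub_zero] at this
      rwa [Finsupp.single_eq_of_ne hRP, Finsupp.single_eq_of_ne hRQ, sub_zero, sub_zero]

theorem finrank_inf_L_eq_zero_of_deg_neg (hK : FunFld.IsFunctionField k K) (V : Submodule k K)
    (E : FunFld.Divisor k K) (h : E.deg < 0) : Module.finrank k ↥(V ⊓ FunFld.L E) = 0 := by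
  rw [L_eq_bot_of_deg_neg hK E h, inf_bot_eq, finrank_bot]

theorem two_point [IsAlgClosed k] (hK : FunFld.IsFunctionField k K) (D : FunFld.Divisor k K)
    (d r : ℕ) (hD : D.deg = d) (V : Submodule k K) (hVr : Module.finrank k ↥V = r + 1)
    (P Q : FunFld.Place k K) (hPQ : P ≠ Q) (n m : ℕ) (hnm : n + m = d + 1) :
    Module.finrank k ↥(V ⊓ FunFld.L (D - Finsupp.single P (n : ℤ))) +
      Module.finrank k ↥(V ⊓ FunFld.L (D - Finsupp.single Q (m : ℤ))) ≤ r + 1 := by
  have hfdV : FiniteDimensional k V := Module.finite_of_finrank_pos (by omega)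
  set S₁ := V ⊓ FunFld.L (D - Finsupp.single P (n : ℤ)) with hS₁
  set S₂ := V ⊓ FunFld.L (D - Finsupp.single Q (m : ℤ)) with hS₂
  have hfd1 : FiniteDimensional k S₁ := Submodule.finiteDimensional_of_le inf_le_left
  have hfd2 : FiniteDimensional k S₂ := Submodule.finiteDimensional_of_le inf_le_left
  have h1 := Submodule.finrank_sup_add_finrank_inf_eq S₁ S₂
  have h2 : S₁ ⊓ S₂ = ⊥ := by
    rw [eq_bot_iff]
    rintro x ⟨⟨-, hx1⟩, ⟨-, hx2⟩⟩
    have hx := L_inf_le P Q hPQ D n m ⟨hx1, hx2⟩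
    rw [L_eq_bot_of_deg_neg hK _ (by
      rw [deg_sub, deg_sub, deg_single, deg_single, deg_eq_one_of_isAlgClosed hK P,
        deg_eq_one_of_isAlgClosed hK Q, hD]
      push_cast; omega)] at hx
    exact hx
  have h3 : Module.finrank k ↥(S₁ ⊔ S₂) ≤ Module.finrank k V :=
    Submodule.finrank_mono (sup_le inf_le_left inf_le_left)
  rw [h2, finrank_bot] at h1
  omega

theorem two_point_sum [IsAlgClosed k] (hK : FunFld.IsFunctionField k K) (D : FunFld.Divisor k K)
    (d r : ℕ) (hD : D.deg = d) (V : Submodule k K) (hVr : Module.finrank k ↥V = r + 1)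
    (P Q : FunFld.Place k K) (hPQ : P ≠ Q) :
    (∑ j ∈ Finset.range d, Module.finrank k ↥(V ⊓ FunFld.L (D - Finsupp.single P ((j : ℤ) + 1)))) +
      (∑ j ∈ Finset.range d, Module.finrank k ↥(V ⊓ FunFld.L (D - Finsupp.single Q ((j : ℤ) + 1))))
      ≤ (r + 1) * d := by
  rw [← Finset.sum_range_reflect
    (fun j => Module.finrank k ↥(V ⊓ FunFld.L (D - Finsupp.single Q ((j : ℤ) + 1)))) d,
    ← Finset.sum_add_distrib]
  calc _ ≤ ∑ _j ∈ Finset.range d, (r + 1) := Finset.sum_le_sum fun j hj => by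
        have hj' := Finset.mem_range.mp hj
        have := two_point hK D d r hD V hVr P Q hPQ (j + 1) (d - 1 - j + 1) (by omega)
        have e1 : ((j + 1 : ℕ) : ℤ) = (j : ℤ) + 1 := by push_cast; ring
        have e2 : ((d - 1 - j + 1 : ℕ) : ℤ) = ((d - 1 - j : ℕ) : ℤ) + 1 := by push_cast; ring
        rw [e1, e2] at this
        exact this
    _ = (r + 1) * d := by rw [Finset.sum_const, Finset.card_range, smul_eq_mul, mul_comm]

theorem compat_sum {K' : Type*} [Field K'] [Algebra k K'] (D : FunFld.Divisor k K)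
    (D' : FunFld.Divisor k K') (V : Submodule k K) (V' : Submodule k K') (B : FunFld.Place k K)
    (A' : FunFld.Place k K') (d r : ℕ)
    (hcomp : ∀ m : ℕ, m ≤ d + 1 →
      Module.finrank k ↥(V ⊓ FunFld.L (D - Finsupp.single B (m : ℤ))) +
        Module.finrank k ↥(V' ⊓ FunFld.L (D' - Finsupp.single A' ((d : ℤ) + 1 - m))) = r + 1) :
    (∑ j ∈ Finset.range d, Module.finrank k ↥(V ⊓ FunFld.L (D - Finsupp.single B ((j : ℤ) + 1)))) +
      (∑ j ∈ Finset.range d,
        Module.finrank k ↥(V' ⊓ FunFld.L (D' - Finsupp.single A' ((j : ℤ) + 1))))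
      = (r + 1) * d := by
  rw [← Finset.sum_range_reflect
    (fun j => Module.finrank k ↥(V' ⊓ FunFld.L (D' - Finsupp.single A' ((j : ℤ) + 1)))) d,
    ← Finset.sum_add_distrib]
  calc _ = ∑ _j ∈ Finset.range d, (r + 1) := Finset.sum_congr rfl fun j hj => by
        have hj' := Finset.mem_range.mp hj
        have := hcomp (j + 1) (by omega)
        have e1 : ((j + 1 : ℕ) : ℤ) = (j : ℤ) + 1 := by push_cast; ring
        have e2 : (d : ℤ) + 1 - ((j : ℤ) + 1) = ((d - 1 - j : ℕ) : ℤ) + 1 := by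
          have : j ≤ d - 1 := by omega
          push_cast [Nat.cast_sub this, Nat.cast_sub (show 1 ≤ d by omega)]; ring
        rw [e1] at this
        rw [e2] at this
        exact this
    _ = (r + 1) * d := by rw [Finset.sum_const, Finset.card_range, smul_eq_mul, mul_comm]

theorem two_point_full [IsAlgClosed k] (hK : FunFld.IsFunctionField k K) (d r : ℕ)
    (D : FunFld.Divisor k K) (hD : D.deg = d) (V : Submodule k K)
    (hVr : Module.finrank k ↥V = r + 1) (P Q : FunFld.Place k K) (hPQ : P ≠ Q) :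
    (∀ n : ℕ, n ≤ d + 1 →
      Module.finrank k ↥(V ⊓ FunFld.L (D - Finsupp.single P ((n : ℤ)))) +
        Module.finrank k ↥(V ⊓ FunFld.L (D - Finsupp.single Q ((d : ℤ) + 1 - n))) ≤ r + 1) ∧
    (∑ n ∈ Finset.range d, Module.finrank k ↥(V ⊓ FunFld.L (D - Finsupp.single P ((n : ℤ) + 1)))) +
      (∑ n ∈ Finset.range d, Module.finrank k ↥(V ⊓ FunFld.L (D - Finsupp.single Q ((n : ℤ) + 1))))
        ≤ (r + 1) * d := by
  refine ⟨fun n hn => ?_, two_point_sum hK D d r hD V hVr P Q hPQ⟩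
  have := two_point hK D d r hD V hVr P Q hPQ n (d + 1 - n) (by omega)
  have e : ((d + 1 - n : ℕ) : ℤ) = (d : ℤ) + 1 - n := by
    push_cast [Nat.cast_sub hn]; ring
  rw [e] at this
  exact this

theorem compat_mono [IsAlgClosed k] {KY KZ : Type*} [Field KY] [Algebra k KY] [Field KZ]
    [Algebra k KZ] (hKY : FunFld.IsFunctionField k KY) (d r : ℕ) (DY : FunFld.Divisor k KY)
    (hDY : DY.deg = d) (DZ : FunFld.Divisor k KZ) (VY : Submodule k KY)
    (hVYr : Module.finrank k ↥VY = r + 1) (VZ : Submodule k KZ)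
    (P : FunFld.Place k KY) (Q : FunFld.Place k KZ)
    (hcomp : ∀ n : ℕ, n ≤ d + 1 →
      Module.finrank k ↥(VY ⊓ FunFld.L (DY - Finsupp.single P ((n : ℤ)))) +
        Module.finrank k ↥(VZ ⊓ FunFld.L (DZ - Finsupp.single Q ((d : ℤ) + 1 - n))) = r + 1)
    (P' : FunFld.Place k KY) (hP' : P' ≠ P) (n : ℕ) :
    Module.finrank k ↥(VY ⊓ FunFld.L (DY - Finsupp.single P' ((n : ℤ)))) ≤
      Module.finrank k ↥(VZ ⊓ FunFld.L (DZ - Finsupp.single Q ((n : ℤ)))) := by
  by_cases hn : n ≤ d + 1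
  · have h1 := two_point hKY DY d r hDY VY hVYr P' P hP' n (d + 1 - n) (by omega)
    have h2 := hcomp (d + 1 - n) (by omega)
    have e : (d : ℤ) + 1 - ((d + 1 - n : ℕ) : ℤ) = n := by
      push_cast [Nat.cast_sub hn]; ring
    rw [e] at h2
    omega
  · rw [finrank_inf_L_eq_zero_of_deg_neg hKY VY _ (by
      rw [deg_sub, deg_single, deg_eq_one_of_isAlgClosed hKY P', hDY]; push_cast; omega)]
    exact Nat.zero_le _

theorem chain_weight [IsAlgClosed k] (n : ℕ) (hn : 0 < n) (U : Fin (n + 1) → Type*)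
    [∀ l, Field (U l)] [∀ l, Algebra k (U l)]
    (hU : ∀ l, FunFld.IsFunctionField k (U l))
    (d r : ℕ) (D : ∀ l, FunFld.Divisor k (U l)) (hD : ∀ l, (D l).deg = d)
    (V : ∀ l, Submodule k (U l))
    (hVr : ∀ l, Module.finrank k ↥(V l) = r + 1)
    (A B : ∀ l, FunFld.Place k (U l))
    (hAB : ∀ l : Fin (n + 1), 0 < (l : ℕ) → (l : ℕ) < n → A l ≠ B l)
    (hcomp : ∀ (l : Fin n) (m : ℕ), m ≤ d + 1 →
      Module.finrank k ↥((V l.castSucc) ⊓
          FunFld.L ((D l.castSucc) - Finsupp.single (B l.castSucc) ((m : ℤ)))) +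
        Module.finrank k ↥((V l.succ) ⊓
          FunFld.L ((D l.succ) - Finsupp.single (A l.succ) ((d : ℤ) + 1 - m))) = r + 1)
    (c : ℕ) (hc : (∑ j ∈ Finset.range d, Module.finrank k ↥((V 0) ⊓
        FunFld.L ((D 0) - Finsupp.single (B 0) ((j : ℤ) + 1)))) + c + r * (r + 1) ≤
        (r + 1) * d + r * (r + 1) / 2)
    (l : Fin (n + 1)) (hl : 0 < (l : ℕ)) :
    c + r * (r + 1) / 2 ≤ (∑ j ∈ Finset.range d, Module.finrank k ↥((V l) ⊓
      FunFld.L ((D l) - Finsupp.single (A l) ((j : ℤ) + 1)))) := by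
  set Wa : Fin (n + 1) → ℕ := fun l => ∑ j ∈ Finset.range d,
    Module.finrank k ↥((V l) ⊓ FunFld.L ((D l) - Finsupp.single (A l) ((j : ℤ) + 1))) with hWa
  set Wb : Fin (n + 1) → ℕ := fun l => ∑ j ∈ Finset.range d,
    Module.finrank k ↥((V l) ⊓ FunFld.L ((D l) - Finsupp.single (B l) ((j : ℤ) + 1))) with hWb
  have hcs : ∀ l' : Fin n, Wb l'.castSucc + Wa l'.succ = (r + 1) * d := fun l' =>
    compat_sum (D l'.castSucc) (D l'.succ) (V l'.castSucc) (V l'.succ) (B l'.castSucc)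
      (A l'.succ) d r (hcomp l')
  have htp : ∀ l : Fin (n + 1), 0 < (l : ℕ) → (l : ℕ) < n → Wa l + Wb l ≤ (r + 1) * d :=
    fun l h0 h1 => two_point_sum (hU l) (D l) d r (hD l) (V l) (hVr l) (A l) (B l) (hAB l h0 h1)
  have hc' : Wb 0 + c + r * (r + 1) ≤ (r + 1) * d + r * (r + 1) / 2 := hc
  have h2 : r * (r + 1) / 2 * 2 = r * (r + 1) :=
    Nat.div_mul_cancel (Nat.even_mul_succ_self r).two_dvd
  have key : ∀ m : ℕ, ∀ hm : m + 1 < n + 1, c + r * (r + 1) / 2 ≤ Wa ⟨m + 1, hm⟩ := by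
    intro m
    induction m with
    | zero =>
      intro hm
      have h1 := hcs ⟨0, hn⟩
      have e1 : (⟨0, hn⟩ : Fin n).castSucc = 0 := Fin.ext rfl
      have e2 : (⟨0, hn⟩ : Fin n).succ = ⟨0 + 1, hm⟩ := Fin.ext rfl
      rw [e1, e2] at h1
      generalize r * (r + 1) = t at *
      omega
    | succ m ih =>
      intro hm
      have ih' := ih (by omega)
      have h1 := htp ⟨m + 1, by omega⟩ (by simp) (by simp; omega)
      have h3 := hcs ⟨m + 1, by omega⟩
      have e1 : (⟨m + 1, by omega⟩ : Fin n).castSucc = ⟨m + 1, by omega⟩ := Fin.ext rfl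
      have e2 : (⟨m + 1, by omega⟩ : Fin n).succ = ⟨m + 1 + 1, hm⟩ := Fin.ext rfl
      rw [e1, e2] at h3
      omega
  obtain ⟨lv, hlv⟩ := l
  obtain ⟨m, rfl⟩ : ∃ m, lv = m + 1 := ⟨lv - 1, by simp at hl; omega⟩
  exact key m hlv

theorem chain_last [IsAlgClosed k] (n : ℕ) (hn : 0 < n) (U : Fin (n + 1) → Type*)
    [∀ l, Field (U l)] [∀ l, Algebra k (U l)]
    (hU : ∀ l, FunFld.IsFunctionField k (U l))
    (d r : ℕ) (D : ∀ l, FunFld.Divisor k (U l)) (hD : ∀ l, (D l).deg = d)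
    (V : ∀ l, Submodule k (U l))
    (hVr : ∀ l, Module.finrank k ↥(V l) = r + 1)
    (A B : ∀ l, FunFld.Place k (U l))
    (hAB : ∀ l : Fin (n + 1), 0 < (l : ℕ) → (l : ℕ) < n → A l ≠ B l)
    (hcomp : ∀ (l : Fin n) (m : ℕ), m ≤ d + 1 →
      Module.finrank k ↥((V l.castSucc) ⊓
          FunFld.L ((D l.castSucc) - Finsupp.single (B l.castSucc) ((m : ℤ)))) +
        Module.finrank k ↥((V l.succ) ⊓
          FunFld.L ((D l.succ) - Finsupp.single (A l.succ) ((d : ℤ) + 1 - m))) = r + 1)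
    (c : ℕ) (hc : (∑ j ∈ Finset.range d, Module.finrank k ↥((V 0) ⊓
        FunFld.L ((D 0) - Finsupp.single (B 0) ((j : ℤ) + 1)))) + c + r * (r + 1) ≤
        (r + 1) * d + r * (r + 1) / 2)
    (Q : FunFld.Place k (U (Fin.last n))) (hQ : Q ≠ A (Fin.last n)) :
    (∑ j ∈ Finset.range d, Module.finrank k ↥((V (Fin.last n)) ⊓
        FunFld.L ((D (Fin.last n)) - Finsupp.single Q ((j : ℤ) + 1)))) + c + r * (r + 1) ≤
      (r + 1) * d + r * (r + 1) / 2 := by
  have h1 := chain_weight n hn U hU d r D hD V hVr A B hAB hcomp c hc (Fin.last n)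
    (by simp; omega)
  have h2 := two_point_sum (hU (Fin.last n)) (D (Fin.last n)) d r (hD _) (V _) (hVr _) Q
    (A (Fin.last n)) hQ
  have h3 : r * (r + 1) / 2 * 2 = r * (r + 1) :=
    Nat.div_mul_cancel (Nat.even_mul_succ_self r).two_dvd
  generalize r * (r + 1) = t at *
  omega

end LinSeries

end Groth.Agent.Lib.Helper16.FunFldLib
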